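import Mathlib

set_option autoImplicit false
set_option linter.unusedVariables false
set_option linter.unusedSectionVars false
set_option linter.unusedSimpArgs false

namespace Cfsg.Agent.LocFus
open Equiv Equiv.Perm

variable {α : Type*} [Fintype α] [DecidableEq α]

/-- `p` lies in a cycle of odd length. -/
def Od (σ : Perm α) (p : α) : Prop := ∃ m : ℕ, (σ ^ (2 * m + 1)) p = p

theorem f_pow {σ : Perm α} {f : α → ℤ} (hf : ∀ q, f (σ q) = - f q) (n : ℕ) (p : α) :
    f ((σ ^ n) p) = (-1) ^ n * f p := by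
  induction n with
  | zero => simp
  | succ n ih => rw [pow_succ', Perm.mul_apply, hf, ih]; ring

theorem od_zero {σ : Perm α} {f : α → ℤ} (hf : ∀ q, f (σ q) = - f q) {p : α} (h : Od σ p) :
    f p = 0 := by
  obtain ⟨m, hm⟩ := h
  have := f_pow hf (2 * m + 1) p
  rw [hm, pow_succ, pow_mul] at this
  simp at this
  omega

theorem od_zpow {σ : Perm α} {p : α} (m : ℤ) (h : (σ ^ (2 * m + 1)) p = p) : Od σ p := by
  rcases le_or_gt 0 m with hm | hm
  · obtain ⟨k, rfl⟩ := Int.eq_ofNat_of_zero_le hm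
    refine ⟨k, ?_⟩
    rw [← zpow_natCast]; push_cast; exact h
  · obtain ⟨k, hk⟩ := Int.eq_ofNat_of_zero_le (show 0 ≤ -m - 1 by omega)
    refine ⟨k, ?_⟩
    rw [← zpow_natCast]
    have e : ((2 * k + 1 : ℕ) : ℤ) = -(2 * m + 1) := by push_cast; omega
    rw [e, zpow_neg, Perm.inv_eq_iff_eq]; exact h.symm

theorem zpow_zpow_apply (σ : Perm α) (i j : ℤ) (p : α) :
    (σ ^ i) ((σ ^ j) p) = (σ ^ (i + j)) p := by
  rw [zpow_add, Perm.mul_apply]

theorem od_of_two {σ : Perm α} {p : α} (i j : ℤ) (h : (σ ^ (2 * i)) p = (σ ^ (2 * j + 1)) p) :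
    Od σ p := by
  apply od_zpow (j - i)
  have := congrArg (σ ^ (-(2 * i))) h
  rw [zpow_zpow_apply, zpow_zpow_apply] at this
  simp only [neg_add_cancel, zpow_zero, Perm.one_apply] at this
  rw [show 2 * (j - i) + 1 = -(2 * i) + (2 * j + 1) by ring]; exact this.symm

theorem exists_f {σ : Perm α} {p : α} (h : ¬ Od σ p) :
    ∃ f : α → ℤ, (∀ q, f (σ q) = - f q) ∧ f p = 1 ∧ ∀ q, ¬ SameCycle σ p q → f q = 0 := by
  classical
  refine ⟨fun q => if ∃ m : ℤ, (σ ^ (2 * m)) p = q then 1 else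
    if ∃ m : ℤ, (σ ^ (2 * m + 1)) p = q then -1 else 0, ?_, ?_, ?_⟩
  · intro q
    have e1 : (∃ m : ℤ, (σ ^ (2 * m)) p = σ q) ↔ ∃ m : ℤ, (σ ^ (2 * m + 1)) p = q := by
      constructor
      · rintro ⟨m, hm⟩
        refine ⟨m - 1, σ.injective ?_⟩
        rw [← hm, ← Perm.mul_apply, ← zpow_one_add]; congr 2; ring
      · rintro ⟨m, hm⟩
        refine ⟨m + 1, ?_⟩
        rw [← hm, ← Perm.mul_apply, ← zpow_one_add]; congr 2; ring
    have e2 : (∃ m : ℤ, (σ ^ (2 * m + 1)) p = σ q) ↔ ∃ m : ℤ, (σ ^ (2 * m)) p = q := by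
      constructor
      · rintro ⟨m, hm⟩
        refine ⟨m, σ.injective ?_⟩
        rw [← hm, ← Perm.mul_apply, ← zpow_one_add]; congr 2; ring
      · rintro ⟨m, hm⟩
        refine ⟨m, ?_⟩
        rw [← hm, ← Perm.mul_apply, ← zpow_one_add]; congr 2; ring
    simp only [e1, e2]
    by_cases a1 : ∃ m : ℤ, (σ ^ (2 * m)) p = q <;>
      by_cases a2 : ∃ m : ℤ, (σ ^ (2 * m + 1)) p = q
    · obtain ⟨i, hi⟩ := a1; obtain ⟨j, hj⟩ := a2
      exact absurd (od_of_two i j (hi.trans hj.symm)) h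
    · simp [a1, a2]
    · simp [a1, a2]
    · simp [a1, a2]
  · have : ∃ m : ℤ, (σ ^ (2 * m)) p = p := ⟨0, by simp⟩
    simp [this]
  · intro q hq
    have a1 : ¬ ∃ m : ℤ, (σ ^ (2 * m)) p = q := fun ⟨m, hm⟩ => hq ⟨_, hm⟩
    have a2 : ¬ ∃ m : ℤ, (σ ^ (2 * m + 1)) p = q := fun ⟨m, hm⟩ => hq ⟨_, hm⟩
    simp [a1, a2]

theorem od_of {σ : Perm α} {p : α} (h : ∀ g : α → ℤ, (∀ q, g (σ q) = - g q) → g p = 0) :
    Od σ p := by
  by_contra hn
  obtain ⟨f, h1, h2, -⟩ := exists_f hn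
  rw [h f h1] at h2; exact zero_ne_one h2

theorem pow_mul_fix {σ : Perm α} {p : α} {n : ℕ} (h : (σ ^ n) p = p) (k : ℕ) :
    (σ ^ (n * k)) p = p := by
  rw [pow_mul]; exact Perm.pow_apply_eq_self_of_apply_eq_self h k

theorem exists_common (σ : Perm α) : ∃ m : ℕ, ∀ p, Od σ p → (σ ^ (2 * m + 1)) p = p := by
  classical
  have : ∀ p, ∃ m : ℕ, Od σ p → (σ ^ (2 * m + 1)) p = p := by
    intro p
    by_cases h : Od σ p
    · obtain ⟨m, hm⟩ := h; exact ⟨m, fun _ => hm⟩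
    · exact ⟨0, fun h' => absurd h' h⟩
  choose m hm using this
  have ho : Odd (∏ p, (2 * m p + 1)) := 
    Finset.prod_induction _ Odd (fun a b ha hb => ha.mul hb) odd_one (fun p _ => ⟨m p, rfl⟩)
  obtain ⟨M, hM⟩ := ho
  refine ⟨M, fun p hp => ?_⟩
  obtain ⟨k, hk⟩ : 2 * m p + 1 ∣ ∏ p, (2 * m p + 1) :=
    Finset.dvd_prod_of_mem (fun p => 2 * m p + 1) (Finset.mem_univ p)
  rw [← hM, hk]; exact pow_mul_fix (hm p hp) k

theorem odd_of_od {σ : Perm α} (h : ∀ p, Od σ p) : Odd (orderOf σ) := by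
  obtain ⟨m, hm⟩ := exists_common σ
  have : σ ^ (2 * m + 1) = 1 := by ext p; exact hm p (h p)
  exact Odd.of_dvd_nat ⟨m, rfl⟩ (orderOf_dvd_of_pow_eq_one this)

theorem od_of_odd {σ : Perm α} (h : Odd (orderOf σ)) (p : α) : Od σ p := by
  obtain ⟨m, hm⟩ := h
  exact ⟨m, by rw [← hm, pow_orderOf_eq_one]; rfl⟩

theorem Od.sameCycle {σ : Perm α} {p q : α} (h : Od σ p) (hq : SameCycle σ p q) : Od σ q := by
  obtain ⟨m, hm⟩ := h
  obtain ⟨i, rfl⟩ := hq
  refine ⟨m, ?_⟩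
  rw [← Perm.mul_apply, ← zpow_natCast, ← zpow_add, add_comm, zpow_add, zpow_natCast,
    Perm.mul_apply, hm]

theorem Od.inv {σ : Perm α} {p : α} (h : Od σ p) : Od σ⁻¹ p := by
  obtain ⟨m, hm⟩ := h
  refine ⟨m, ?_⟩
  rw [inv_pow, Perm.inv_eq_iff_eq]; exact hm.symm

theorem inv_self {x : Perm α} (hx : ∀ q, x (x q) = q) : x⁻¹ = x := by
  ext q; rw [Perm.inv_eq_iff_eq, hx]

theorem od_swap {x y : Perm α} (hx : ∀ q, x (x q) = q) (hy : ∀ q, y (y q) = q) {p : α}
    (h : Od (x * y) p) : Od (y * x) p := by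
  have := h.inv
  rwa [mul_inv_rev, inv_self hx, inv_self hy] at this

theorem x_zpow {x y : Perm α} (hx : ∀ q, x (x q) = q) (hy : ∀ q, y (y q) = q) (i : ℤ) (p : α) :
    x (((x * y) ^ i) p) = ((x * y) ^ (-i)) (x p) := by
  have e : x * (x * y) * x⁻¹ = (x * y)⁻¹ := by
    rw [mul_inv_rev, inv_self hx, inv_self hy]; ext q; simp [hx]
  have := conj_zpow (i := i) (a := x) (b := x * y)
  rw [e, inv_zpow'] at this
  rw [this]; simp

theorem y_eq {x y : Perm α} (hx : ∀ q, x (x q) = q) (p : α) : y p = x ((x * y) p) := by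
  simp [hx]

theorem od_x {x y : Perm α} (hx : ∀ q, x (x q) = q) (hy : ∀ q, y (y q) = q) {p : α}
    (h : Od (x * y) p) : Od (x * y) (x p) := by
  obtain ⟨m, hm⟩ := h.inv
  refine ⟨m, ?_⟩
  have := x_zpow hx hy (-((2 * m + 1 : ℕ) : ℤ)) p
  rw [neg_neg, zpow_natCast, zpow_neg, zpow_natCast, ← inv_pow, hm] at this
  exact this.symm

theorem od_y {x y : Perm α} (hx : ∀ q, x (x q) = q) (hy : ∀ q, y (y q) = q) {p : α}
    (h : Od (x * y) p) : Od (x * y) (y p) := by
  rw [y_eq hx p]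
  exact od_x hx hy (h.sameCycle ⟨1, by simp⟩)

theorem od_x_iff {x y : Perm α} (hx : ∀ q, x (x q) = q) (hy : ∀ q, y (y q) = q) {p : α} :
    Od (x * y) (x p) ↔ Od (x * y) p :=
  ⟨fun h => by simpa [hx] using od_x hx hy h, od_x hx hy⟩

theorem od_y_iff {x y : Perm α} (hx : ∀ q, x (x q) = q) (hy : ∀ q, y (y q) = q) {p : α} :
    Od (x * y) (y p) ↔ Od (x * y) p :=
  ⟨fun h => by simpa [hy] using od_y hx hy h, od_y hx hy⟩

/-- counting fixed points -/
theorem exists_yfix {x y : Perm α} (hx : ∀ q, x (x q) = q) (hy : ∀ q, y (y q) = q)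
    (hc : IsConj x y) {q : α} (hq : x q = q) (hq' : ¬ Od (x * y) q) :
    ∃ p, y p = p ∧ ¬ Od (x * y) p := by
  by_contra hn
  push Not at hn
  obtain ⟨m, hm⟩ := exists_common (x * y)
  obtain ⟨g, hg⟩ := isConj_iff.1 hc
  have h1 : ∀ r, x r = r → y (g r) = g r := by
    intro r hr; rw [← hg]; simp [hr]
  have h2 : ∀ p, y p = p → x (((x * y) ^ (m + 1)) p) = ((x * y) ^ (m + 1)) p := by
    intro p hp
    have a := x_zpow hx hy ((m + 1 : ℕ) : ℤ) p
    have b : x p = (x * y) p := by simp [hp]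
    rw [zpow_natCast] at a
    rw [a, b]
    have c := hm p (hn p hp)
    conv_lhs => rw [← c]
    rw [← Perm.mul_apply, ← Perm.mul_apply, ← zpow_natCast, ← zpow_natCast, ← zpow_add_one,
      ← zpow_add]
    congr 2; push_cast; ring
  let F : {r // x r = r} → {r // x r = r} := fun r =>
    ⟨((x * y) ^ (m + 1)) (g r.1), h2 _ (h1 _ r.2)⟩
  have hF : Function.Injective F := by
    intro r s hrs
    have := congrArg Subtype.val hrs
    exact Subtype.ext (g.injective (((x * y) ^ (m + 1)).injective this))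
  obtain ⟨r, hr⟩ := (Finite.injective_iff_surjective.1 hF) ⟨q, hq⟩
  have := congrArg Subtype.val hr
  apply hq'
  exact (hn _ (h1 _ r.2)).sameCycle ⟨((m + 1 : ℕ) : ℤ), by rw [zpow_natCast]; exact this⟩

/-- the sum identity -/
theorem sum_id {x y z : Perm α} (hy : ∀ q, y (y q) = q) {f g : α → ℤ}
    (hf : ∀ q, f ((x * y) q) = - f q) (hg : ∀ q, g ((z * y) q) = - g q) (D : Finset α)
    (hD : ∀ r, r ∉ D → z r = x r) : ∑ r ∈ D, (f (z r) - f (x r)) * g (y r) = 0 := by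
  rw [Finset.sum_subset (Finset.subset_univ D) (fun r _ hr => by rw [hD r hr]; simp)]
  rw [← Equiv.sum_comp y]
  simp only [hy, sub_mul, Finset.sum_sub_distrib]
  have e1 : ∑ q, f (z (y q)) * g q = - ∑ q, f q * g q := by
    rw [← Equiv.sum_comp (z * y) (fun q => f q * g q), ← Finset.sum_neg_distrib]
    refine Finset.sum_congr rfl (fun q _ => ?_)
    rw [hg]; simp
  have e2 : ∑ q, f (x (y q)) * g q = - ∑ q, f q * g q := by
    rw [← Finset.sum_neg_distrib]
    refine Finset.sum_congr rfl (fun q _ => ?_)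
    rw [← Perm.mul_apply, hf]; simp
  rw [e1, e2, sub_self]

theorem od_mono {x y z : Perm α} (hx : ∀ q, x (x q) = q) (hy : ∀ q, y (y q) = q)
    (hD : ∀ r, z r ≠ x r → ¬ Od (x * y) r) {q : α} (hq : Od (x * y) q) : Od (z * y) q := by
  have : ∀ n : ℕ, ((z * y) ^ n) q = ((x * y) ^ n) q := by
    intro n
    induction n with
    | zero => simp
    | succ n ih =>
      rw [pow_succ', pow_succ', Perm.mul_apply, Perm.mul_apply, ih, Perm.mul_apply,
        Perm.mul_apply (x)]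
      by_contra hne
      exact hD _ hne (od_y hx hy (hq.sameCycle ⟨(n : ℤ), by rw [zpow_natCast]⟩))
  obtain ⟨m, hm⟩ := hq
  exact ⟨m, by rw [this, hm]⟩

theorem odd_trans {x x' z : Perm α} (hx : ∀ q, x (x q) = q) (hx' : ∀ q, x' (x' q) = q)
    (h1 : Odd (orderOf (x * x'))) (h2 : Odd (orderOf (x' * z)))
    (hd : ∀ q, x' q = x q ∨ z q = x' q) : Odd (orderOf (x * z)) := by
  have e : x * z = (x * x') * (x' * z) := by ext q; simp [hx']
  have hc : Perm.Disjoint (x * x') (x' * z) := by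
    intro q
    rcases hd q with h | h
    · left; simp [h, hx]
    · right; simp [h, hx']
  rw [e]
  exact Odd.of_dvd_nat (h1.mul h2) hc.commute.orderOf_mul_dvd_mul_orderOf

theorem tri {x : Perm α} (hx : ∀ q, x (x q) = q) {a b c : α} (hab : a ≠ b) (hac : a ≠ c)
    (hbc : b ≠ c) (h1 : x a = b) (h2 : x c = c) :
    ∃ z : Perm α, (∀ q, z (z q) = q) ∧ IsConj x z ∧ Odd (orderOf (x * z)) ∧ z a = c ∧ z b = b ∧
      z c = a ∧ ∀ r, r ≠ a → r ≠ b → r ≠ c → z r = x r := by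
  have h1' : x b = a := by rw [← h1, hx]
  have hz : ∀ r, r ≠ a → r ≠ b → r ≠ c → (swap b c * x * swap b c) r = x r := by
    intro r ha hb hc
    have : x r ≠ b := fun h => ha (by rw [← hx r, h, h1'])
    have : x r ≠ c := fun h => hc (by rw [← hx r, h, h2])
    simp [swap_apply_of_ne_of_ne, *]
  have za : (swap b c * x * swap b c) a = c := by simp [swap_apply_of_ne_of_ne, *]
  have zb : (swap b c * x * swap b c) b = b := by simp [swap_apply_of_ne_of_ne, *]
  have zc : (swap b c * x * swap b c) c = a := by simp [swap_apply_of_ne_of_ne, *]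
  refine ⟨swap b c * x * swap b c, by intro q; simp [hx], isConj_iff.2 ⟨swap b c, by simp⟩, ?_,
    za, zb, zc, hz⟩
  generalize swap b c * x * swap b c = z at *
  apply odd_of_od
  intro q
  by_cases qa : q = a
  · exact ⟨1, by simp [pow_succ, *]⟩
  by_cases qb : q = b
  · exact ⟨1, by simp [pow_succ, *]⟩
  by_cases qc : q = c
  · exact ⟨1, by simp [pow_succ, *]⟩
  exact ⟨0, by simp [hz q qa qb qc, hx]⟩

theorem hex {x : Perm α} (hx : ∀ q, x (x q) = q) {a b c d e f : α}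
    (hn : [a, b, c, d, e, f].Nodup) (h1 : x a = b) (h2 : x c = d) (h3 : x e = f) :
    ∃ z : Perm α, (∀ q, z (z q) = q) ∧ IsConj x z ∧ Odd (orderOf (x * z)) ∧ z b = c ∧ z c = b ∧
      z d = e ∧ z e = d ∧ z f = a ∧ z a = f ∧ ∀ r, r ∉ [a, b, c, d, e, f] → z r = x r := by
  have h1' : x b = a := by rw [← h1, hx]
  have h2' : x d = c := by rw [← h2, hx]
  have h3' : x f = e := by rw [← h3, hx]
  simp only [List.nodup_cons, List.mem_cons, List.not_mem_nil, or_false, not_or,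
    not_false_eq_true, List.nodup_nil, and_true] at hn
  obtain ⟨⟨ab, ac, ad, ae, af⟩, ⟨bc, bd, be, bf⟩, ⟨cd, ce, cf⟩, ⟨de, df⟩, ef⟩ := hn
  have ba := Ne.symm ab; have ca := Ne.symm ac; have da := Ne.symm ad; have ea := Ne.symm ae
  have fa := Ne.symm af; have cb := Ne.symm bc; have db := Ne.symm bd; have eb := Ne.symm be
  have fb := Ne.symm bf; have dc := Ne.symm cd; have ec := Ne.symm ce; have fc := Ne.symm cf
  have ed := Ne.symm de; have fd := Ne.symm df; have fe := Ne.symm ef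
  set z : Perm α := (swap a e * swap a c) * x * (swap a e * swap a c)⁻¹ with hzd
  have hz : ∀ r, r ∉ [a, b, c, d, e, f] → z r = x r := by
    intro r hr
    simp only [List.mem_cons, List.not_mem_nil, or_false, not_or] at hr
    obtain ⟨ra, rb, rc, rd, re, rf⟩ := hr
    have : x r ≠ a := fun h => rb (by rw [← hx r, h, h1])
    have : x r ≠ c := fun h => rd (by rw [← hx r, h, h2])
    have : x r ≠ e := fun h => rf (by rw [← hx r, h, h3])
    simp [hzd, swap_apply_of_ne_of_ne, *]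
  have zb : z b = c := by simp [hzd, swap_apply_of_ne_of_ne, *]
  have zc : z c = b := by simp [hzd, swap_apply_of_ne_of_ne, *]
  have zd : z d = e := by simp [hzd, swap_apply_of_ne_of_ne, *]
  have ze : z e = d := by simp [hzd, swap_apply_of_ne_of_ne, *]
  have zf : z f = a := by simp [hzd, swap_apply_of_ne_of_ne, *]
  have za : z a = f := by simp [hzd, swap_apply_of_ne_of_ne, *]
  refine ⟨z, by intro q; simp [hzd, hx], isConj_iff.2 ⟨_, rfl⟩, ?_, zb, zc, zd, ze, zf, za, hz⟩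
  clear_value z
  apply odd_of_od
  intro q
  by_cases hq : q ∈ [a, b, c, d, e, f]
  · simp only [List.mem_cons, List.not_mem_nil, or_false] at hq
    refine ⟨1, ?_⟩
    rcases hq with rfl | rfl | rfl | rfl | rfl | rfl <;>
      simp [pow_succ, za, zb, zc, zd, ze, zf, h1, h2, h3, h1', h2', h3']
  · exact ⟨0, by simp [hz q hq, hx]⟩

end Cfsg.Agent.LocFus
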