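import Cfsg.Agent.LocFus.A

set_option autoImplicit false
set_option linter.unusedVariables false
set_option linter.unusedSectionVars false
set_option linter.unusedSimpArgs false

namespace Cfsg.Agent.LocFus
open Equiv Equiv.Perm

variable {α : Type*} [Fintype α] [DecidableEq α]

def Step (x y z : Perm α) : Prop :=
  (∀ q, z (z q) = q) ∧ IsConj x z ∧ Odd (orderOf (x * z)) ∧
    (∀ r, z r ≠ x r → ¬ Od (x * y) r ∧ Od (z * y) r) ∧
    ∃ w, z w = x w ∧ ¬ Od (x * y) w ∧ Od (z * y) w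

theorem f_xy {x y : Perm α} (hy : ∀ q, y (y q) = q) {f : α → ℤ}
    (hf : ∀ q, f ((x * y) q) = - f q) (r : α) : f (x r) = - f (y r) := by
  have := hf (y r); simpa [hy] using this

theorem od_fix {σ : Perm α} {p : α} (h : σ p = p) : Od σ p := ⟨0, by simpa using h⟩

theorem step_xy {x y : Perm α} (hx : ∀ q, x (x q) = q) (hy : ∀ q, y (y q) = q) {a c : α}
    (ha : y a = a) (ha' : ¬ Od (x * y) a) (hc : x c = c) (hc' : ¬ Od (x * y) c) :
    ∃ z, Step x y z := by
  obtain ⟨b, hb⟩ : ∃ b, x a = b := ⟨_, rfl⟩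
  have hb' : x b = a := by rw [← hb, hx]
  have hσ : (x * y) a = b := by simp [ha, hb]
  have nca : ¬ SameCycle (x * y) c a := by
    rintro ⟨j, hj⟩
    apply hc'
    have e := x_zpow hx hy (j + 1) c
    rw [hc, add_comm, zpow_one_add, Perm.mul_apply, hj, hσ, hb', ← hj] at e
    apply od_zpow j
    have := congrArg ((x * y) ^ (1 + j)) e
    rw [zpow_zpow_apply, zpow_zpow_apply, add_neg_cancel] at this
    rw [show 2 * j + 1 = 1 + j + j by ring, this]; simp
  have ncb : ¬ SameCycle (x * y) c b := fun h => nca (h.trans ⟨-1, by simp [← hσ]⟩)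
  obtain ⟨f1, f1a, f1b, f1c⟩ := exists_f ha'
  obtain ⟨f2, f2a, f2b, f2c⟩ := exists_f hc'
  have v1b : f1 b = -1 := by rw [← hσ, f1a, f1b]
  have v1c : f1 c = 0 := f1c _ (fun h => nca h.symm)
  have v2a : f2 a = 0 := f2c _ nca
  have v2b : f2 b = 0 := f2c _ ncb
  have v2w : f2 (y c) = -1 := by have := f_xy hy f2a c; rw [hc] at this; omega
  have hab : a ≠ b := by intro h; rw [h] at f1b; omega
  have hac : a ≠ c := by intro h; rw [h] at f1b; omega
  have hbc : b ≠ c := by intro h; rw [h] at v1b; omega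
  obtain ⟨z, hz, hcj, hodd, za, zb, zc, zr⟩ := tri hx hab hac hbc hb hc
  have key : ∀ g : α → ℤ, (∀ q, g ((z * y) q) = - g q) →
      g a = 0 ∧ g b = 0 ∧ g c = 0 ∧ g (y c) = 0 := by
    intro g hg
    have hD : ∀ r, r ∉ ({a, b, c} : Finset α) → z r = x r := by
      intro r hr; simp only [Finset.mem_insert, Finset.mem_singleton, not_or] at hr
      exact zr r hr.1 hr.2.1 hr.2.2
    have s1 := sum_id hy f1a hg _ hD
    have s2 := sum_id hy f2a hg _ hD
    rw [Finset.sum_insert (by simp [hab, hac]), Finset.sum_pair hbc] at s1 s2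
    have r1 := f_xy hy hg a; have r2 := f_xy hy hg b; have r3 := f_xy hy hg c
    simp only [za, zb, zc, hb, hb', hc, ha, f1b, v1b, v1c, f2b, v2a, v2b] at s1 s2 r1 r2 r3
    omega
  refine ⟨z, hz, hcj, hodd, ?_, y c, ?_, by rwa [od_y_iff hx hy], od_of fun g hg => (key g hg).2.2.2⟩
  · intro r hr
    by_cases ra : r = a
    · subst ra; exact ⟨ha', od_of fun g hg => (key g hg).1⟩
    by_cases rb : r = b
    · subst rb; exact ⟨by rwa [← hb, od_x_iff hx hy], od_of fun g hg => (key g hg).2.1⟩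
    by_cases rc : r = c
    · subst rc; exact ⟨hc', od_of fun g hg => (key g hg).2.2.1⟩
    exact absurd (zr r ra rb rc) hr
  · apply zr <;> intro h <;> rw [h] at v2w <;> omega

theorem sum_six {a b c d e f : α} (hn : [a, b, c, d, e, f].Nodup) (F : α → ℤ) :
    ∑ r ∈ [a, b, c, d, e, f].toFinset, F r = F a + F b + F c + F d + F e + F f := by
  rw [List.sum_toFinset _ hn]; simp; ring

theorem nsc {x y : Perm α} (hx : ∀ q, x (x q) = q) (hy : ∀ q, y (y q) = q) {p q r : α}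
    (h : ¬ SameCycle (x * y) p (x p)) (hq : SameCycle (x * y) p q) (hr : SameCycle (x * y) p r) :
    ¬ SameCycle (x * y) q (x r) := by
  intro h'
  apply h
  obtain ⟨i, rfl⟩ := hr
  rw [x_zpow hx hy] at h'
  exact (hq.trans h').trans (SameCycle.symm ⟨-i, rfl⟩)

theorem step_long {x y : Perm α} (hx : ∀ q, x (x q) = q) (hy : ∀ q, y (y q) = q) {p1 : α}
    (hp : ¬ Od (x * y) p1) (h2 : (x * y) ((x * y) p1) ≠ p1)
    (hs : ¬ SameCycle (x * y) p1 (x p1)) : ∃ z, Step x y z := by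
  obtain ⟨p2, e1⟩ : ∃ b, y p1 = b := ⟨_, rfl⟩
  obtain ⟨p3, e2⟩ : ∃ b, x p2 = b := ⟨_, rfl⟩
  obtain ⟨p4, e3⟩ : ∃ b, y p3 = b := ⟨_, rfl⟩
  obtain ⟨p5, e4⟩ : ∃ b, x p4 = b := ⟨_, rfl⟩
  obtain ⟨p6, e5⟩ : ∃ b, y p5 = b := ⟨_, rfl⟩
  obtain ⟨p7, e6⟩ : ∃ b, x p6 = b := ⟨_, rfl⟩
  have e1' : y p2 = p1 := by rw [← e1, hy]
  have e2' : x p3 = p2 := by rw [← e2, hx]
  have e3' : y p4 = p3 := by rw [← e3, hy]
  have e4' : x p5 = p4 := by rw [← e4, hx]
  have e5' : y p6 = p5 := by rw [← e5, hy]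
  have e6' : x p7 = p6 := by rw [← e6, hx]
  have s1 : SameCycle (x * y) p1 p1 := SameCycle.refl _ _
  have s3 : SameCycle (x * y) p1 p3 := ⟨1, by simp [e1, e2]⟩
  have s5 : SameCycle (x * y) p1 p5 := s3.trans ⟨1, by simp [e3, e4]⟩
  have s7 : SameCycle (x * y) p1 p7 := s5.trans ⟨1, by simp [e5, e6]⟩
  have hp2 : ¬ Od (x * y) p2 := by rwa [← e1, od_y_iff hx hy]
  have hp3 : ¬ Od (x * y) p3 := by rwa [← e2, od_x_iff hx hy]
  have hp4 : ¬ Od (x * y) p4 := by rwa [← e3, od_y_iff hx hy]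
  have hp5 : ¬ Od (x * y) p5 := by rwa [← e4, od_x_iff hx hy]
  have hp6 : ¬ Od (x * y) p6 := by rwa [← e5, od_y_iff hx hy]
  have hp7 : ¬ Od (x * y) p7 := by rwa [← e6, od_x_iff hx hy]
  obtain ⟨f1, f1a, f11, f1c⟩ := exists_f hp
  obtain ⟨f2, f2a, f22, f2c⟩ := exists_f hp2
  have f12 : f1 p2 = 0 := f1c _ (by rw [← e2']; exact nsc hx hy hs s1 s3)
  have f14 : f1 p4 = 0 := f1c _ (by rw [← e4']; exact nsc hx hy hs s1 s5)
  have f16 : f1 p6 = 0 := f1c _ (by rw [← e6']; exact nsc hx hy hs s1 s7)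
  have f13 : f1 p3 = -1 := by have := f_xy hy f1a p2; rw [e2, e1'] at this; omega
  have f15 : f1 p5 = 1 := by have := f_xy hy f1a p4; rw [e4, e3'] at this; omega
  have f17 : f1 p7 = -1 := by have := f_xy hy f1a p6; rw [e6, e5'] at this; omega
  have f23 : f2 p3 = 0 := f2c _ (fun h => nsc hx hy hs s3 s3 (by rw [e2']; exact h.symm))
  have f25 : f2 p5 = 0 := f2c _ (fun h => nsc hx hy hs s5 s3 (by rw [e2']; exact h.symm))
  have f27 : f2 p7 = 0 := f2c _ (fun h => nsc hx hy hs s7 s3 (by rw [e2']; exact h.symm))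
  have f24 : f2 p4 = -1 := by have := f_xy hy f2a p3; rw [e2', e3] at this; omega
  have f26 : f2 p6 = 1 := by have := f_xy hy f2a p5; rw [e4', e5] at this; omega
  have n15 : p1 ≠ p5 := by
    intro h; apply h2; simp only [Perm.mul_apply, e1, e2, e3, e4]; exact h.symm
  have n26 : p2 ≠ p6 := by intro h; apply n15; rw [← e1', ← e5', h]
  have n37 : p3 ≠ p7 := by intro h; apply n26; rw [← e2', ← e6', h]
  have ne : ∀ (f : α → ℤ) (u v : α), f u ≠ f v → u ≠ v := fun f u v h e => h (by rw [e])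
  have hn : [p2, p3, p4, p5, p7, p6].Nodup := by
    simp only [List.nodup_cons, List.mem_cons, List.not_mem_nil, or_false, not_or,
      not_false_eq_true, List.nodup_nil, and_true]
    refine ⟨⟨ne f1 _ _ ?_, ne f2 _ _ ?_, ne f1 _ _ ?_, ne f1 _ _ ?_, n26⟩,
      ⟨ne f1 _ _ ?_, ne f1 _ _ ?_, n37, ne f1 _ _ ?_⟩, ⟨ne f1 _ _ ?_, ne f1 _ _ ?_, ne f2 _ _ ?_⟩,
      ⟨ne f1 _ _ ?_, ne f1 _ _ ?_⟩, ne f1 _ _ ?_⟩ <;> omega
  obtain ⟨z, hz, hcj, hodd, zb, zc, zd, ze, zf, za, zr⟩ := hex hx hn e2 e4 e6'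
  have key : ∀ g : α → ℤ, (∀ q, g ((z * y) q) = - g q) →
      g p1 = 0 ∧ g p2 = 0 ∧ g p3 = 0 ∧ g p4 = 0 ∧ g p5 = 0 ∧ g p7 = 0 ∧ g p6 = 0 := by
    intro g hg
    have hD : ∀ r, r ∉ [p2, p3, p4, p5, p7, p6].toFinset → z r = x r := by
      intro r hr; exact zr r (by rwa [List.mem_toFinset] at hr)
    have t1 := sum_id hy f1a hg _ hD
    have t2 := sum_id hy f2a hg _ hD
    rw [sum_six hn] at t1 t2
    have r2 := f_xy hy hg p2; have r3 := f_xy hy hg p3; have r4 := f_xy hy hg p4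
    have r5 := f_xy hy hg p5; have r6 := f_xy hy hg p6; have r7 := f_xy hy hg p7
    simp only [za, zb, zc, zd, ze, zf, e1', e2, e2', e3, e3', e4, e4', e5, e5', e6, e6',
      f12, f13, f14, f15, f16, f17, f22, f23, f24, f25, f26, f27] at t1 t2 r2 r3 r4 r5 r6 r7
    omega
  refine ⟨z, hz, hcj, hodd, ?_, p1, ?_, hp, od_of fun g hg => (key g hg).1⟩
  · intro r hr
    have : r ∈ [p2, p3, p4, p5, p7, p6] := by by_contra h; exact hr (zr r h)
    simp only [List.mem_cons, List.not_mem_nil, or_false] at this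
    rcases this with h | h | h | h | h | h <;> rw [h] <;>
      exact ⟨by assumption, od_of fun g hg => by have := key g hg; omega⟩
  · apply zr
    simp only [List.mem_cons, List.not_mem_nil, or_false, not_or]
    refine ⟨ne f1 _ _ ?_, ne f1 _ _ ?_, ne f1 _ _ ?_, n15, ne f1 _ _ ?_, ne f1 _ _ ?_⟩ <;> omega

def Four (x y : Perm α) (a b c d : α) : Prop :=
  x a = b ∧ y b = c ∧ x c = d ∧ y d = a ∧ [a, b, c, d].Nodup

theorem Four.xmem {x y : Perm α} (hx : ∀ q, x (x q) = q) {a b c d : α} (h : Four x y a b c d)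
    {r : α} (hr : r ∈ [a, b, c, d]) : x r ∈ [a, b, c, d] := by
  obtain ⟨e1, e2, e3, e4, -⟩ := h
  have e1' : x b = a := by rw [← e1, hx]
  have e3' : x d = c := by rw [← e3, hx]
  simp only [List.mem_cons, List.not_mem_nil, or_false] at hr
  rcases hr with h | h | h | h <;> rw [h] <;> simp [e1, e1', e3, e3']

theorem Four.ymem {x y : Perm α} (hy : ∀ q, y (y q) = q) {a b c d : α} (h : Four x y a b c d)
    {r : α} (hr : r ∈ [a, b, c, d]) : y r ∈ [a, b, c, d] := by
  obtain ⟨e1, e2, e3, e4, -⟩ := h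
  have e2' : y c = b := by rw [← e2, hy]
  have e4' : y a = d := by rw [← e4, hy]
  simp only [List.mem_cons, List.not_mem_nil, or_false] at hr
  rcases hr with h | h | h | h <;> rw [h] <;> simp [e2, e2', e4, e4']

theorem Four.cyc {x y : Perm α} (hx : ∀ q, x (x q) = q) (hy : ∀ q, y (y q) = q) {a b c d : α}
    (h : Four x y a b c d) {r s : α} (hr : r ∈ [a, b, c, d]) (hs : SameCycle (x * y) r s) :
    s ∈ [a, b, c, d] := by
  obtain ⟨n, -, rfl⟩ := hs.exists_pow_eq'
  clear hs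
  induction n with
  | zero => simpa using hr
  | succ n ih => rw [pow_succ', Perm.mul_apply, Perm.mul_apply]; exact h.xmem hx (h.ymem hy ih)

theorem Four.not_od {x y : Perm α} (hx : ∀ q, x (x q) = q) (hy : ∀ q, y (y q) = q) {a b c d : α}
    (h : Four x y a b c d) {r : α} (hr : r ∈ [a, b, c, d]) : ¬ Od (x * y) r := by
  obtain ⟨e1, e2, e3, e4, hn⟩ := h
  have e1' : x b = a := by rw [← e1, hx]
  have e2' : y c = b := by rw [← e2, hy]
  have e4' : y a = d := by rw [← e4, hy]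
  have e3' : x d = c := by rw [← e3, hx]
  have ha : ¬ Od (x * y) a := by
    rintro ⟨m, hm⟩
    have : ((x * y) ^ (2 * m)) a = a := pow_mul_fix (by simp [pow_succ, *]) m
    rw [pow_succ', Perm.mul_apply, this, Perm.mul_apply, e4', e3'] at hm
    simp [hm] at hn
  have hb : ¬ Od (x * y) b := by rwa [← e1, od_x_iff hx hy]
  have hc : ¬ Od (x * y) c := by rwa [← e2, od_y_iff hx hy]
  have hd : ¬ Od (x * y) d := by rwa [← e3, od_x_iff hx hy]
  simp only [List.mem_cons, List.not_mem_nil, or_false] at hr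
  rcases hr with h | h | h | h <;> rw [h] <;> assumption

theorem nodup_six {a b c d e f : α} (hn : [a, b, c, d].Nodup) (he : e ∉ [a, b, c, d])
    (hf : f ∉ [a, b, c, d]) (hef : e ≠ f) : [a, b, c, d, e, f].Nodup := by
  simp only [List.nodup_cons, List.mem_cons, List.not_mem_nil, or_false, not_or,
    not_false_eq_true, List.nodup_nil, and_true] at *
  have := fun (u v : α) => @Ne.symm α u v
  tauto

theorem step_A {x y : Perm α} (hx : ∀ q, x (x q) = q) (hy : ∀ q, y (y q) = q) {a b c d e : α}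
    (h : Four x y a b c d) (he : e ∉ [a, b, c, d]) (he' : ¬ Od (x * y) e)
    (hs : ¬ SameCycle (x * y) e (x e)) : ∃ z, Step x y z := by
  obtain ⟨f, e5⟩ : ∃ b, x e = b := ⟨_, rfl⟩
  have e5' : x f = e := by rw [← e5, hx]
  rw [e5] at hs
  have hf : f ∉ [a, b, c, d] := fun hh => he (by rw [← e5']; exact h.xmem hx hh)
  have hf' : ¬ Od (x * y) f := by rwa [← e5, od_x_iff hx hy]
  have hef : e ≠ f := fun hh => hs (by rw [hh])
  obtain ⟨f1, f1a, f1e, f1c⟩ := exists_f he'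
  obtain ⟨f2, f2a, f2f, f2c⟩ := exists_f hf'
  have v1 : ∀ r ∈ [a, b, c, d], f1 r = 0 := fun r hr => f1c r (fun hh => he (h.cyc hx hy hr hh.symm))
  have v2 : ∀ r ∈ [a, b, c, d], f2 r = 0 := fun r hr => f2c r (fun hh => hf (h.cyc hx hy hr hh.symm))
  have f1f : f1 f = 0 := f1c _ hs
  have f2e : f2 e = 0 := f2c _ (fun hh => hs hh.symm)
  have f2w : f2 (y e) = -1 := by have := f_xy hy f2a e; rw [e5] at this; omega
  have nod := fun r hr => h.not_od hx hy (r := r) hr
  obtain ⟨e1, e2, e3, e4, hn4⟩ := h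
  have e1' : x b = a := by rw [← e1, hx]
  have e2' : y c = b := by rw [← e2, hy]
  have e4' : y a = d := by rw [← e4, hy]
  have e3' : x d = c := by rw [← e3, hx]
  have hn := nodup_six hn4 he hf hef
  obtain ⟨z, hz, hcj, hodd, zb, zc, zd, ze, zf, za, zr⟩ := hex hx hn e1 e3 e5
  have f1a' := v1 a (by simp); have f1b := v1 b (by simp); have f1c' := v1 c (by simp)
  have f1d := v1 d (by simp)
  have f2a' := v2 a (by simp); have f2b := v2 b (by simp); have f2c' := v2 c (by simp)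
  have f2d := v2 d (by simp)
  have key : ∀ g : α → ℤ, (∀ q, g ((z * y) q) = - g q) →
      g a = 0 ∧ g b = 0 ∧ g c = 0 ∧ g d = 0 ∧ g e = 0 ∧ g f = 0 ∧ g (y e) = 0 := by
    intro g hg
    have hD : ∀ r, r ∉ [a, b, c, d, e, f].toFinset → z r = x r := by
      intro r hr; exact zr r (by rwa [List.mem_toFinset] at hr)
    have t1 := sum_id hy f1a hg _ hD
    have t2 := sum_id hy f2a hg _ hD
    rw [sum_six hn] at t1 t2
    have r2 := f_xy hy hg a; have r3 := f_xy hy hg b; have r4 := f_xy hy hg c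
    have r5 := f_xy hy hg d; have r6 := f_xy hy hg e; have r7 := f_xy hy hg f
    simp only [za, zb, zc, zd, ze, zf, e1, e1', e2, e2', e3, e3', e4, e4', e5, e5',
      f1a', f1b, f1c', f1d, f1e, f1f, f2a', f2b, f2c', f2d, f2e, f2f] at t1 t2 r2 r3 r4 r5 r6 r7
    omega
  have na := nod a (by simp); have nb := nod b (by simp); have nc := nod c (by simp)
  have nd := nod d (by simp)
  refine ⟨z, hz, hcj, hodd, ?_, y e, ?_, by rwa [od_y_iff hx hy],
    od_of fun g hg => by have := key g hg; omega⟩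
  · intro r hr
    have : r ∈ [a, b, c, d, e, f] := by by_contra h; exact hr (zr r h)
    simp only [List.mem_cons, List.not_mem_nil, or_false] at this
    rcases this with h | h | h | h | h | h <;> rw [h] <;>
      exact ⟨by assumption, od_of fun g hg => by have := key g hg; omega⟩
  · apply zr
    intro hh
    simp only [List.mem_cons, List.not_mem_nil, or_false] at hh
    rcases hh with h | h | h | h | h | h <;> rw [h] at f2w <;> omega

end Cfsg.Agent.LocFus
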