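import Cfsg.Agent.LocFus.B

set_option autoImplicit false
set_option linter.unusedVariables false
set_option linter.unusedSectionVars false
set_option linter.unusedSimpArgs false

namespace Cfsg.Agent.LocFus
open Equiv Equiv.Perm

variable {α : Type*} [Fintype α] [DecidableEq α]

def Res (x y : Perm α) : Prop :=
  ∃ z : Perm α, (∀ q, z (z q) = q) ∧ IsConj x z ∧ Odd (orderOf (x * z)) ∧
    (∀ r, z r ≠ x r → ¬ Od (x * y) r) ∧
    ((∀ q, Od (z * y) q) ∨ ∃ a b c d, Four x y a b c d ∧ Four z y a b c d ∧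
      (∀ q, q ∉ [a, b, c, d] → Od (z * y) q) ∧
      ((∃ w, w ∉ [a, b, c, d]) → ∃ w, w ∉ [a, b, c, d] ∧ z w = x w))

theorem odd_self {x : Perm α} (hx : ∀ q, x (x q) = q) : Odd (orderOf (x * x)) :=
  odd_of_od fun q => od_fix (by simp [hx])

theorem Res.of_step {x y z : Perm α} (hx : ∀ q, x (x q) = q) (hy : ∀ q, y (y q) = q)
    (h : Step x y z) (h' : Res z y) : Res x y := by
  obtain ⟨hz, hc, ho, hD, w, hw1, hw2, hw3⟩ := h
  obtain ⟨u, hu, hc', ho', hD', hr⟩ := h'
  have hd : ∀ q, z q = x q ∨ u q = z q := by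
    intro q; by_contra hh; push Not at hh; exact hD' q hh.2 (hD q hh.1).2
  have mono : ∀ q, Od (x * y) q → Od (z * y) q := fun q hq =>
    od_mono hx hy (fun r hr => (hD r hr).1) hq
  refine ⟨u, hu, hc.trans hc', odd_trans hx hz ho ho' hd, ?_, ?_⟩
  · intro r hr hr'
    rcases hd r with h | h
    · exact hD' r (by rwa [h]) (mono r hr')
    · exact (hD r (by rwa [← h])).1 hr'
  · rcases hr with hr | ⟨a, b, c, d, F1, F2, h3, h4⟩
    · exact Or.inl hr
    · right
      have e : ∀ r ∈ [a, b, c, d], z r = x r := by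
        intro r hr; by_contra hh; exact F1.not_od hz hy hr (hD r hh).2
      refine ⟨a, b, c, d, ?_, F2, h3, fun _ => ⟨w, fun hh => F1.not_od hz hy hh hw3, ?_⟩⟩
      · obtain ⟨e1, e2, e3, e4, hn⟩ := F1
        exact ⟨by rw [← e a (by simp), e1], e2, by rw [← e c (by simp), e3], e4, hn⟩
      · rw [← hw1]; by_contra hh; exact hD' w hh hw3

theorem fix_of_sameCycle {x y : Perm α} (hx : ∀ q, x (x q) = q) (hy : ∀ q, y (y q) = q) {p : α}
    (h : SameCycle (x * y) p (x p)) : ∃ q, SameCycle (x * y) p q ∧ (x q = q ∨ y q = q) := by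
  obtain ⟨j, hj⟩ := h
  rcases Int.even_or_odd' j with ⟨i, rfl | rfl⟩
  · refine ⟨((x * y) ^ i) p, ⟨i, rfl⟩, Or.inl ?_⟩
    rw [x_zpow hx hy, ← hj, zpow_zpow_apply]; congr 2; ring
  · refine ⟨((x * y) ^ i) p, ⟨i, rfl⟩, Or.inr ?_⟩
    rw [y_eq hx, ← Perm.mul_apply (x * y), ← zpow_one_add, x_zpow hx hy, ← hj, zpow_zpow_apply]
    congr 2; ring

theorem step_or {x y : Perm α} (hx : ∀ q, x (x q) = q) (hy : ∀ q, y (y q) = q)
    (hc : IsConj x y) : (∃ z, Step x y z) ∨ Res x y := by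
  by_cases h0 : ∀ q, Od (x * y) q
  · exact Or.inr ⟨x, hx, IsConj.refl _, odd_self hx, fun r hr => absurd rfl hr, Or.inl h0⟩
  by_cases h1 : ∃ q, ¬ Od (x * y) q ∧ (x q = q ∨ y q = q)
  · left
    obtain ⟨q, hq, h | h⟩ := h1
    · obtain ⟨p, hp, hp'⟩ := exists_yfix hx hy hc h hq
      exact step_xy hx hy hp hp' h hq
    · obtain ⟨p, hp, hp'⟩ := exists_yfix hy hx hc.symm h (fun hh => hq (od_swap hy hx hh))
      exact step_xy hx hy h hq hp (fun hh => hp' (od_swap hx hy hh))
  have h2 : ∀ p, ¬ Od (x * y) p → ¬ SameCycle (x * y) p (x p) := by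
    intro p hp hs
    obtain ⟨q, hq, hq'⟩ := fix_of_sameCycle hx hy hs
    exact h1 ⟨q, fun hh => hp (hh.sameCycle hq.symm), hq'⟩
  push Not at h0
  obtain ⟨a, ha⟩ := h0
  by_cases h3 : (x * y) ((x * y) a) = a
  swap
  · exact Or.inl (step_long hx hy ha h3 (h2 a ha))
  have F : Four x y a (x a) (x (y a)) (y a) := by
    have e : y (x a) = x (y a) := by
      simp only [Perm.mul_apply] at h3
      conv_lhs => rw [← h3]
      rw [hx, hy]
    have n1 : a ≠ x a := fun h => h1 ⟨a, ha, Or.inl h.symm⟩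
    have n2 : a ≠ y a := fun h => h1 ⟨a, ha, Or.inr h.symm⟩
    have n3 : a ≠ x (y a) := fun h => ha (od_fix h.symm)
    refine ⟨rfl, e, hx _, hy _, ?_⟩
    simp only [List.nodup_cons, List.mem_cons, List.not_mem_nil, or_false, not_or,
      not_false_eq_true, List.nodup_nil, and_true]
    refine ⟨⟨n1, n3, n2⟩, ⟨fun h => n2 (x.injective h), fun h => n3 ?_⟩, fun h => n1 ?_⟩
    · rw [← h, hx]
    · rw [← e] at h; exact (y.injective h).symm
  by_cases h4 : ∀ q, q ∉ [a, x a, x (y a), y a] → Od (x * y) q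
  · exact Or.inr ⟨x, hx, IsConj.refl _, odd_self hx, fun r hr => absurd rfl hr,
      Or.inr ⟨_, _, _, _, F, F, h4, fun ⟨w, hw⟩ => ⟨w, hw, rfl⟩⟩⟩
  push Not at h4
  obtain ⟨e, he, he'⟩ := h4
  exact Or.inl (step_A hx hy F he he' (h2 e he'))

theorem res {y : Perm α} (hy : ∀ q, y (y q) = q) (n : ℕ) : ∀ x : Perm α, (∀ q, x (x q) = q) →
    IsConj x y → Set.ncard {q | ¬ Od (x * y) q} = n → Res x y := by
  induction n using Nat.strong_induction_on with
  | _ n ih =>
    intro x hx hc hn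
    rcases step_or hx hy hc with ⟨z, hz⟩ | h
    · refine Res.of_step hx hy hz (ih _ ?_ z hz.1 (hz.2.1.symm.trans hc) rfl)
      rw [← hn]
      obtain ⟨-, -, -, hD, w, hw1, hw2, hw3⟩ := hz
      apply Set.ncard_lt_ncard _ (Set.toFinite _)
      refine ⟨fun q hq hq' => hq (od_mono hx hy (fun r hr => (hD r hr).1) hq'), fun hh => ?_⟩
      exact hh hw2 hw3
    · exact h

theorem absorb_aux {z y u : Perm α} (hz : ∀ q, z (z q) = q) (hy : ∀ q, y (y q) = q) {a b c d : α}
    (F : Four z y a b c d) (h3 : ∀ q, q ∉ [a, b, c, d] → Od (z * y) q) {g : α → ℤ}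
    (hg : ∀ r, r ∉ [a, b, c, d] → g (z r) = - g (y r)) : ∀ q, q ∉ [a, b, c, d] → g q = 0 := by
  intro q hq
  have := od_zero (σ := z * y) (f := fun r => if r ∈ [a, b, c, d] then 0 else g r) ?_ (h3 q hq)
  · simpa [hq] using this
  intro r
  by_cases hr : r ∈ [a, b, c, d]
  · have : (z * y) r ∈ [a, b, c, d] := F.xmem hz (F.ymem hy hr)
    simp only [hr, this, if_true, neg_zero]
  · have h1 : y r ∉ [a, b, c, d] := fun hh => hr (by simpa [hy] using F.ymem hy hh)
    have h2 : (z * y) r ∉ [a, b, c, d] := fun hh => h1 (by simpa [hz] using F.xmem hz hh)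
    simp only [hr, h2, if_false]
    rw [Perm.mul_apply, hg _ h1, hy]

theorem absorb {z y : Perm α} (hz : ∀ q, z (z q) = q) (hy : ∀ q, y (y q) = q) {a b c d w : α}
    (F : Four z y a b c d) (h3 : ∀ q, q ∉ [a, b, c, d] → Od (z * y) q) (hw : w ∉ [a, b, c, d]) :
    ∃ u : Perm α, IsConj z u ∧ Odd (orderOf (z * u)) ∧ (∀ q, Od (u * y) q) ∧
      ∀ r, r ∉ [a, b, c, d] → r ≠ w → r ≠ z w → u r = z r := by
  obtain ⟨e1, e2, e3, e4, hn4⟩ := id F
  have e1' : z b = a := by rw [← e1, hz]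
  have e2' : y c = b := by rw [← e2, hy]
  have e4' : y a = d := by rw [← e4, hy]
  have e3' : z d = c := by rw [← e3, hz]
  have hn' := hn4
  have hw' := hw
  simp only [List.nodup_cons, List.mem_cons, List.not_mem_nil, or_false, not_or,
    not_false_eq_true, List.nodup_nil, and_true] at hn' hw'
  by_cases hzw : z w = w
  · obtain ⟨u, hu, hcj, hodd, za, zb, zc, zr⟩ :=
      tri hz hn'.1.1 (Ne.symm hw'.1) (Ne.symm hw'.2.1) e1 hzw
    have uc : u c = d := by
      rw [zr c (Ne.symm hn'.1.2.1) (Ne.symm hn'.2.1.1) (Ne.symm hw'.2.2.1), e3]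
    have ud : u d = c := by rw [← uc, hu]
    refine ⟨u, hcj, hodd, fun q => od_of fun g hg => ?_, fun r hr h1 _ => ?_⟩
    · have r1 := f_xy hy hg a; have r2 := f_xy hy hg b; have r3 := f_xy hy hg c
      have r4 := f_xy hy hg d; have r5 := f_xy hy hg w
      simp only [za, zb, zc, uc, ud, e2, e2', e4, e4'] at r1 r2 r3 r4 r5
      have k := absorb_aux (u := u) hz hy F h3 (g := g) (by
        intro r hr
        by_cases rw' : r = w
        · rw [rw', hzw]; omega
        · have hr' := hr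
          simp only [List.mem_cons, List.not_mem_nil, or_false, not_or] at hr'
          rw [← zr r hr'.1 hr'.2.1 rw']; exact f_xy hy hg r)
      have := k w hw
      by_cases hq : q ∈ [a, b, c, d]
      · simp only [List.mem_cons, List.not_mem_nil, or_false] at hq
        rcases hq with h | h | h | h <;> rw [h] <;> omega
      · exact k q hq
    · simp only [List.mem_cons, List.not_mem_nil, or_false, not_or] at hr
      exact zr r hr.1 hr.2.1 h1
  · obtain ⟨f, e5⟩ : ∃ b, z w = b := ⟨_, rfl⟩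
    have e5' : z f = w := by rw [← e5, hz]
    have hf : f ∉ [a, b, c, d] := fun hh => hw (by rw [← e5']; exact F.xmem hz hh)
    have hf' := hf
    simp only [List.mem_cons, List.not_mem_nil, or_false, not_or] at hf'
    rw [e5] at hzw
    have hn : [a, b, w, f, d, c].Nodup := by
      simp only [List.nodup_cons, List.mem_cons, List.not_mem_nil, or_false, not_or,
        not_false_eq_true, List.nodup_nil, and_true]
      have := fun (u v : α) => @Ne.symm α u v
      tauto
    obtain ⟨u, hu, hcj, hodd, zb, zc, zd, ze, zf, za, zr⟩ := hex hz hn e1 e5 e3'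
    have zr' : ∀ r, r ∉ [a, b, c, d] → r ≠ w → r ≠ f → u r = z r := by
      intro r hr h1 h2
      apply zr
      simp only [List.mem_cons, List.not_mem_nil, or_false, not_or] at hr ⊢
      tauto
    refine ⟨u, hcj, hodd, fun q => od_of fun g hg => ?_, by rwa [e5]⟩
    have r1 := f_xy hy hg a; have r2 := f_xy hy hg b; have r3 := f_xy hy hg c
    have r4 := f_xy hy hg d; have r5 := f_xy hy hg w; have r6 := f_xy hy hg f
    simp only [za, zb, zc, zd, ze, zf, e2, e2', e4, e4'] at r1 r2 r3 r4 r5 r6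
    have k := absorb_aux (u := u) hz hy F h3 (g := g) (by
      intro r hr
      by_cases rw' : r = w
      · rw [rw', e5]; omega
      by_cases rf : r = f
      · rw [rf, e5']; omega
      rw [← zr' r hr rw' rf]; exact f_xy hy hg r)
    have := k w hw
    have := k f hf
    by_cases hq : q ∈ [a, b, c, d]
    · simp only [List.mem_cons, List.not_mem_nil, or_false] at hq
      rcases hq with h | h | h | h <;> rw [h] <;> omega
    · exact k q hq

theorem exists_not_mem (h5 : 5 ≤ Fintype.card α) (l : List α) (hl : l.length ≤ 4) :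
    ∃ w, w ∉ l := by
  by_contra h
  push Not at h
  have : Fintype.card α ≤ l.toFinset.card :=
    Finset.card_le_card (fun q _ => List.mem_toFinset.2 (h q))
  have := List.toFinset_card_le l
  omega

theorem main (h5 : 5 ≤ Fintype.card α) {x y : Perm α} (hx : ∀ q, x (x q) = q)
    (hy : ∀ q, y (y q) = q) (hc : IsConj x y) :
    ∃ z, IsConj x z ∧ Odd (orderOf (x * z)) ∧ Odd (orderOf (z * y)) := by
  obtain ⟨z, hz, hc', ho, -, h | ⟨a, b, c, d, F1, F2, h3, h4⟩⟩ := res hy _ x hx hc rfl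
  · exact ⟨z, hc', ho, odd_of_od h⟩
  obtain ⟨w, hw, hw'⟩ := h4 (exists_not_mem h5 _ (by simp))
  obtain ⟨u, hu1, hu2, hu3, hu4⟩ := absorb hz hy F2 h3 hw
  refine ⟨u, hc'.trans hu1, odd_trans hx hz ho hu2 fun q => ?_, odd_of_od hu3⟩
  by_cases hq : q ∈ [a, b, c, d]
  · left
    obtain ⟨e1, -, e3, -⟩ := F1
    obtain ⟨e1', -, e3', -⟩ := F2
    have f1 : x b = a := by rw [← e1, hx]
    have f2 : z b = a := by rw [← e1', hz]
    have f3 : x d = c := by rw [← e3, hx]
    have f4 : z d = c := by rw [← e3', hz]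
    simp only [List.mem_cons, List.not_mem_nil, or_false] at hq
    rcases hq with h | h | h | h <;> rw [h] <;> simp [*]
  by_cases h1 : q = w
  · left; rw [h1, hw']
  by_cases h2 : q = z w
  · left; rw [h2, hz, hw', hx]
  exact Or.inr (hu4 q hq h1 h2)

theorem nonadj (h5 : 5 ≤ Fintype.card α) {t : Perm α} (ht : ∀ q, t (t q) = q) (h1 : t ≠ 1) :
    ∃ y, IsConj t y ∧ y ≠ t ∧ ¬ Odd (orderOf (t * y)) := by
  obtain ⟨a, ha⟩ : ∃ a, t a ≠ a := by
    by_contra h; push Not at h; exact h1 (by ext q; exact h q)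
  obtain ⟨b, e1⟩ : ∃ b, t a = b := ⟨_, rfl⟩
  have e1' : t b = a := by rw [← e1, ht]
  rw [e1] at ha
  have key : ∀ (y : Perm α) (p : α), (t * y) p ≠ p → (t * y) ((t * y) p) = p →
      y ≠ t ∧ ¬ Odd (orderOf (t * y)) := by
    intro y p h1 h2
    refine ⟨fun h => h1 (by simp [h, ht]), fun h => ?_⟩
    obtain ⟨m, hm⟩ := od_of_odd h p
    have : ((t * y) ^ (2 * m)) p = p := pow_mul_fix (by simpa [pow_succ] using h2) m
    rw [pow_succ', Perm.mul_apply, this] at hm
    exact h1 hm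
  by_cases hc : ∃ c, c ≠ a ∧ c ≠ b ∧ t c ≠ c
  · obtain ⟨c, ca, cb, cd⟩ := hc
    obtain ⟨d, e2⟩ : ∃ b, t c = b := ⟨_, rfl⟩
    have e2' : t d = c := by rw [← e2, ht]
    rw [e2] at cd
    have da : d ≠ a := fun h => cb (by rw [← e2', h, e1])
    have db : d ≠ b := fun h => ca (by rw [← e2', h, e1'])
    have ac := ca.symm; have ab := ha.symm
    refine ⟨swap b c * t * (swap b c)⁻¹, isConj_iff.2 ⟨_, rfl⟩, key _ a ?_ ?_⟩ <;>
      simp [swap_apply_of_ne_of_ne, *]
  · push Not at hc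
    obtain ⟨c, hc1⟩ := exists_not_mem h5 [a, b] (by simp)
    obtain ⟨d, hd1⟩ := exists_not_mem h5 [a, b, c] (by simp)
    simp only [List.mem_cons, List.not_mem_nil, or_false, not_or] at hc1 hd1
    obtain ⟨ca, cb⟩ := hc1
    obtain ⟨da, db, dc⟩ := hd1
    have e2 := hc c ca cb
    have e3 := hc d da db
    have ac := Ne.symm ca; have ab := ha.symm; have ad := Ne.symm da; have bc := Ne.symm cb
    have bd := Ne.symm db; have cd := Ne.symm dc
    refine ⟨(swap a c * swap b d) * t * (swap a c * swap b d)⁻¹, isConj_iff.2 ⟨_, rfl⟩,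
      key _ a ?_ ?_⟩ <;> simp [swap_apply_of_ne_of_ne, *]

end Cfsg.Agent.LocFus
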